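import Mathlib
set_option autoImplicit false

/-! Affine groups over minimal irreducible groups. -/

namespace Cfsg.Agent.H9.MinIrr

theorem main {A : Type} [CommGroup A] [Finite A]
    (hirr : ∀ U : Subgroup A, (∀ t : MulAut A, ∀ u ∈ U, t u ∈ U) → U = ⊥ ∨ U = ⊤) (hred : ∃ U : Subgroup A, U ≠ ⊥ ∧ U ≠ ⊤) :
    ∃ (G : Type) (_ : Group G) (_ : Finite G) (M H K : Subgroup G), IsCoatom M ∧ M.index = Nat.card A ∧ H ≤ M ∧
      IsCoatom (H.subgroupOf M) ∧ IsCoatom K ∧ H ≤ K ∧ ¬ IsCoatom (H.subgroupOf K) := by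
  classical
  have hfA : Finite (MulAut A) := Finite.of_injective (fun t : MulAut A => (t : A → A)) DFunLike.coe_injective
  obtain ⟨S, hS⟩ : ∃ S : Set (Subgroup (MulAut A)), S = {T | ∀ U : Subgroup A, (∀ t ∈ T, ∀ u ∈ U, t u ∈ U) → U = ⊥ ∨ U = ⊤} := ⟨_, rfl⟩
  have hSm : ∀ T, T ∈ S ↔ ∀ U : Subgroup A, (∀ t ∈ T, ∀ u ∈ U, t u ∈ U) → U = ⊥ ∨ U = ⊤ := fun T => by rw [hS]; exact Iff.rfl
  have hne : S.Nonempty := ⟨⊤, (hSm _).2 fun U hU => hirr U fun t u hu => hU t trivial u hu⟩
  obtain ⟨T, hT⟩ := S.toFinite.exists_minimal hne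
  have hTS := (hSm _).1 hT.1
  have hTmin : ∀ T' : Subgroup (MulAut A), T' < T → T' ∉ S := fun T' h1 h2 => absurd (hT.2 h2 h1.le) (not_le_of_gt h1)
  have hTnt : Nontrivial T := by
    by_contra hc
    rw [not_nontrivial_iff_subsingleton] at hc
    obtain ⟨U, hU1, hU2⟩ := hred
    rcases hTS U (fun t ht u hu => by
      have : (⟨t, ht⟩ : T) = 1 := Subsingleton.elim _ _
      have : t = 1 := congrArg Subtype.val this
      rw [this]; exact hu) with h | h
    · exact hU1 h
    · exact hU2 h
  obtain ⟨H0, hH0, _⟩ := (eq_top_or_exists_le_coatom (⊥ : Subgroup T)).resolve_left (fun h => by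
    have := (Subgroup.nontrivial_iff).2 hTnt
    exact bot_ne_top h)
  obtain ⟨U, hU, hU1, hU2⟩ : ∃ U : Subgroup A, (∀ t ∈ H0, ∀ u ∈ U, (t : MulAut A) u ∈ U) ∧ U ≠ ⊥ ∧ U ≠ ⊤ := by
    have h1 : H0.map T.subtype < T := by
      apply lt_of_le_of_ne
      · rintro _ ⟨t, _, rfl⟩; exact t.2
      · intro h
        apply hH0.1
        rw [Subgroup.eq_top_iff']
        intro t
        have : (t : MulAut A) ∈ H0.map T.subtype := by rw [h]; exact t.2
        obtain ⟨s, hs, hst⟩ := this
        have : s = t := Subtype.ext hst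
        rw [← this]; exact hs
    have h2 := hTmin _ h1
    rw [hSm] at h2
    push Not at h2
    obtain ⟨U, h3, h4, h5⟩ := h2
    exact ⟨U, fun t ht u hu => h3 t ⟨t, ht, rfl⟩ u hu, h4, h5⟩
  let G := A ⋊[T.subtype] T
  have hGf : Finite G := Finite.of_equiv _ (SemidirectProduct.equivProd (φ := T.subtype)).symm
  have hdec : ∀ g : G, g = SemidirectProduct.inl g.left * SemidirectProduct.inr g.right := fun g => (SemidirectProduct.inl_left_mul_inr_right g).symm
  let L : Subgroup G :=
    { carrier := {g | g.left ∈ U ∧ g.right ∈ H0}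
      mul_mem' := by
        rintro a b ⟨h1, h2⟩ ⟨h3, h4⟩
        refine ⟨?_, H0.mul_mem h2 h4⟩
        rw [SemidirectProduct.mul_left]
        exact U.mul_mem h1 (hU _ h2 _ h3)
      one_mem' := ⟨U.one_mem, H0.one_mem⟩
      inv_mem' := by
        rintro a ⟨h1, h2⟩
        refine ⟨?_, H0.inv_mem h2⟩
        rw [SemidirectProduct.inv_left]
        exact hU _ (H0.inv_mem h2) _ (U.inv_mem h1) }
  have hML : ∀ g : G, g ∈ (SemidirectProduct.inr : T →* G).range ↔ g.left = 1 := by
    intro g
    constructor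
    · rintro ⟨t, rfl⟩; rfl
    · intro h
      refine ⟨g.right, ?_⟩
      conv_rhs => rw [hdec g, h, map_one, one_mul]
  refine ⟨G, inferInstance, hGf, (SemidirectProduct.inr : T →* G).range, H0.map SemidirectProduct.inr, H0.comap SemidirectProduct.rightHom, ?_, ?_, ?_, ?_, ?_, ?_, ?_⟩
  · constructor
    · intro h
      obtain ⟨u, hu1⟩ := Subgroup.ne_bot_iff_exists_ne_one.1 hU1
      have : (SemidirectProduct.inl (u : A) : G) ∈ (SemidirectProduct.inr : T →* G).range := by rw [h]; trivial
      rw [hML] at this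
      exact hu1 (Subtype.ext this)
    · intro N hN
      have hinv : ∀ t ∈ T, ∀ u ∈ N.comap (SemidirectProduct.inl : A →* G), t u ∈ N.comap (SemidirectProduct.inl : A →* G) := by
        intro t ht u hu
        rw [Subgroup.mem_comap] at hu ⊢
        have h1 : (SemidirectProduct.inl (t u) : G) = SemidirectProduct.inr ⟨t, ht⟩ * SemidirectProduct.inl u * SemidirectProduct.inr (⟨t, ht⟩ : T)⁻¹ :=
          SemidirectProduct.inl_aut (φ := T.subtype) ⟨t, ht⟩ u
        rw [h1]
        exact N.mul_mem (N.mul_mem (hN.le ⟨_, rfl⟩) hu) (hN.le ⟨_, rfl⟩)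
      rcases hTS _ hinv with h | h
      · exfalso
        apply not_le_of_gt hN
        intro g hg
        rw [hML]
        have h1 : (SemidirectProduct.inl g.left : G) = g * (SemidirectProduct.inr g.right)⁻¹ := by
          rw [eq_mul_inv_iff_mul_eq]; exact (hdec g).symm
        have h2 : g.left ∈ N.comap (SemidirectProduct.inl : A →* G) := by
          rw [Subgroup.mem_comap, h1]
          exact N.mul_mem hg (N.inv_mem (hN.le ⟨_, rfl⟩))
        rw [h] at h2
        exact Subgroup.mem_bot.1 h2
      · rw [Subgroup.eq_top_iff']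
        intro g
        rw [hdec g]
        have h2 : g.left ∈ N.comap (SemidirectProduct.inl : A →* G) := by rw [h]; trivial
        exact N.mul_mem h2 (hN.le ⟨_, rfl⟩)
  · have h1 := Subgroup.card_mul_index (SemidirectProduct.inr : T →* G).range
    have h2 : Nat.card (SemidirectProduct.inr : T →* G).range = Nat.card T :=
      (Nat.card_congr (MonoidHom.ofInjective (SemidirectProduct.inr_injective (φ := T.subtype))).toEquiv).symm
    have h3 : Nat.card G = Nat.card A * Nat.card T := SemidirectProduct.card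
    rw [h2, h3, mul_comm (Nat.card A)] at h1
    exact Nat.eq_of_mul_eq_mul_left Nat.card_pos h1
  · rintro _ ⟨t, _, rfl⟩; exact ⟨t, rfl⟩
  · let e : T ≃* ↥(SemidirectProduct.inr : T →* G).range := MonoidHom.ofInjective (SemidirectProduct.inr_injective (φ := T.subtype))
    have hc9 : IsCoatom (e.mapSubgroup H0) := (OrderIso.isCoatom_iff e.mapSubgroup H0).2 hH0
    have he : (H0.map (SemidirectProduct.inr : T →* G)).subgroupOf (SemidirectProduct.inr : T →* G).range = e.mapSubgroup H0 := by
      ext x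
      rw [Subgroup.mem_subgroupOf]
      constructor
      · rintro ⟨t, ht, h⟩; exact ⟨t, ht, Subtype.ext h⟩
      · rintro ⟨t, ht, rfl⟩; exact ⟨t, ht, rfl⟩
    rw [he]
    exact hc9
  · exact Subgroup.isCoatom_comap_of_surjective SemidirectProduct.rightHom_surjective hH0
  · rintro _ ⟨t, ht, rfl⟩
    exact ht
  · intro hco
    have hlt : (H0.map (SemidirectProduct.inr : T →* G)).subgroupOf (H0.comap SemidirectProduct.rightHom) < L.subgroupOf (H0.comap SemidirectProduct.rightHom) := by
      apply lt_of_le_of_ne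
      · intro x hx
        rw [Subgroup.mem_subgroupOf] at hx ⊢
        obtain ⟨t, ht, h⟩ := hx
        rw [← h]
        exact ⟨U.one_mem, ht⟩
      · intro h
        obtain ⟨u, hu1⟩ := Subgroup.ne_bot_iff_exists_ne_one.1 hU1
        have hK : (SemidirectProduct.inl (u : A) : G) ∈ H0.comap SemidirectProduct.rightHom := H0.one_mem
        have h1 : (⟨_, hK⟩ : ↥(H0.comap (SemidirectProduct.rightHom : G →* T))) ∈ L.subgroupOf (H0.comap SemidirectProduct.rightHom) := by
          rw [Subgroup.mem_subgroupOf]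
          exact ⟨u.2, H0.one_mem⟩
        rw [← h, Subgroup.mem_subgroupOf] at h1
        obtain ⟨t, _, ht⟩ := h1
        apply hu1
        apply Subtype.ext
        have := congrArg SemidirectProduct.left ht
        exact this.symm
    have htop := hco.2 _ hlt
    apply hU2
    rw [Subgroup.eq_top_iff']
    intro a
    have hK : (SemidirectProduct.inl a : G) ∈ H0.comap SemidirectProduct.rightHom := H0.one_mem
    have h1 : (⟨_, hK⟩ : ↥(H0.comap (SemidirectProduct.rightHom : G →* T))) ∈ L.subgroupOf (H0.comap SemidirectProduct.rightHom) := by rw [htop]; trivial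
    rw [Subgroup.mem_subgroupOf] at h1
    exact h1.1

theorem field_case (K : Type) [Field K] [Finite K] (hred : ∃ U : Subgroup (Multiplicative K), U ≠ ⊥ ∧ U ≠ ⊤) :
    ∃ (G : Type) (_ : Group G) (_ : Finite G) (M H L : Subgroup G), IsCoatom M ∧ M.index = Nat.card K ∧ H ≤ M ∧
      IsCoatom (H.subgroupOf M) ∧ IsCoatom L ∧ H ≤ L ∧ ¬ IsCoatom (H.subgroupOf L) := by
  refine main (A := Multiplicative K) ?_ hred
  intro U hU
  by_cases hb : U = ⊥
  · exact Or.inl hb
  · right
    obtain ⟨u, hu⟩ := Subgroup.ne_bot_iff_exists_ne_one.1 hb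
    have hu0 : Multiplicative.toAdd (u : Multiplicative K) ≠ 0 := by
      intro h
      exact hu (Subtype.ext h)
    rw [Subgroup.eq_top_iff']
    intro v
    by_cases hv : Multiplicative.toAdd v = 0
    · have : v = 1 := hv
      rw [this]; exact U.one_mem
    · obtain ⟨c, hc⟩ : ∃ c : K, c = Multiplicative.toAdd v * (Multiplicative.toAdd (u : Multiplicative K))⁻¹ := ⟨_, rfl⟩
      have hc0 : c ≠ 0 := by rw [hc]; exact mul_ne_zero hv (inv_ne_zero hu0)
      let t : MulAut (Multiplicative K) :=
        { toFun := fun x => Multiplicative.ofAdd (c * Multiplicative.toAdd x)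
          invFun := fun x => Multiplicative.ofAdd (c⁻¹ * Multiplicative.toAdd x)
          left_inv := fun x => by
            show Multiplicative.ofAdd (c⁻¹ * (c * Multiplicative.toAdd x)) = x
            rw [inv_mul_cancel_left₀ hc0]; rfl
          right_inv := fun x => by
            show Multiplicative.ofAdd (c * (c⁻¹ * Multiplicative.toAdd x)) = x
            rw [mul_inv_cancel_left₀ hc0]; rfl
          map_mul' := fun x y => by
            show Multiplicative.ofAdd (c * (Multiplicative.toAdd x + Multiplicative.toAdd y)) = _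
            rw [mul_add]; rfl }
      have h1 := hU t u u.2
      have h2 : t (u : Multiplicative K) = v := by
        show Multiplicative.ofAdd (c * Multiplicative.toAdd (u : Multiplicative K)) = v
        rw [hc, inv_mul_cancel_right₀ hu0]; rfl
      rw [← h2]; exact h1

end Cfsg.Agent.H9.MinIrr
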