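import Cfsg.Agent.H9.SixSet
import Cfsg.Agent.H9.GolMod
set_option autoImplicit false

/-! Pairs of octads and the octad graph. -/

namespace Cfsg.Agent.H9
open Cfsg
open scoped Pointwise

/-! ### base size -/

theorem base_small {Bs : Finset GolayPt} (h : Bs.card ≤ 6) : ∃ g ∈ M24, g ≠ 1 ∧ ∀ b ∈ Bs, g b = b := by
  obtain ⟨E, hBE, hE⟩ := Finset.exists_superset_card_eq h (by rw [card_pt]; norm_num : 6 ≤ Fintype.card GolayPt)
  have hc : 1 < Nat.card {g : Equiv.Perm GolayPt // g ∈ M24 ∧ ∀ p ∈ E, g p = p} := by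
    by_cases ho : ∃ o ∈ octads, E ⊆ o
    · rw [(six_main hE).2.1 ho]; norm_num
    · rw [((six_main hE).2.2 ho).1]; norm_num
  by_contra hh
  push Not at hh
  have hs : Subsingleton {g : Equiv.Perm GolayPt // g ∈ M24 ∧ ∀ p ∈ E, g p = p} := ⟨fun a b => by
    have key : ∀ a : {g : Equiv.Perm GolayPt // g ∈ M24 ∧ ∀ p ∈ E, g p = p}, a.1 = 1 := by
      intro a
      by_contra h1
      obtain ⟨b, hb, hb'⟩ := hh a.1 a.2.1 h1
      exact hb' (a.2.2 b (hBE hb))
    exact Subtype.ext ((key a).trans (key b).symm)⟩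
  have := Finite.card_le_one_iff_subsingleton.2 hs
  omega

theorem base_seven : ∃ Bs : Finset GolayPt, Bs.card = 7 ∧ ∀ g ∈ M24, (∀ b ∈ Bs, g b = b) → g = 1 := by
  refine ⟨(Finset.range 7).image B, ?_, ?_⟩
  · rw [Finset.card_image_of_injOn, Finset.card_range]
    intro i hi j hj h
    simp only [Finset.coe_range, Set.mem_Iio] at hi hj
    by_contra hij
    rcases lt_or_gt_of_ne hij with h' | h'
    · exact B_ne hj h' h.symm
    · exact B_ne hi h' h
  · intro g hg h
    have h7 : g ∈ Hc 7 := mem_Hc.2 ⟨hg, fun j hj => h _ (Finset.mem_image.2 ⟨j, Finset.mem_range.2 hj, rfl⟩)⟩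
    rwa [Hc7, Subgroup.mem_bot] at h7

/-! ### joint stabilizers -/

theorem c30 : (cnt fun k => band (Nat.beq (pc (enc k)) 8) (Nat.beq (pc (Nat.land (enc k) oct0)) 0)) = 30 := by decide +kernel
theorem c280 : (cnt fun k => band (Nat.beq (pc (enc k)) 8) (Nat.beq (pc (Nat.land (enc k) oct0)) 4)) = 280 := by decide +kernel
theorem c448 : (cnt fun k => band (Nat.beq (pc (enc k)) 8) (Nat.beq (pc (Nat.land (enc k) oct0)) 2)) = 448 := by decide +kernel

theorem joint_card {o o' : Finset GolayPt} (ho : o ∈ octads) (ho' : o' ∈ octads) :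
    322560 = (cnt fun k => band (Nat.beq (pc (enc k)) 8) (Nat.beq (pc (Nat.land (enc k) oct0)) (o ∩ o').card)) *
      Nat.card ↥(MulAction.stabilizer M24 o ⊓ MulAction.stabilizer M24 o') := by
  have h := card_inf_stab (MulAction.stabilizer M24 o) o'
  rw [card_oct_stab ho] at h
  have h2 : MulAction.orbit (MulAction.stabilizer M24 o) o' = {x | x ∈ wordsOfWeight (golayCode : Set (GolayPt → ZMod 2)) 8 ∧ (o ∩ x).card = (o ∩ o').card} := by
    ext x
    constructor
    · rintro ⟨g, rfl⟩
      have hgo : (g : M24) • o = o := g.2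
      refine ⟨smul_mem_weight (g : M24).2 ho', ?_⟩
      have := smul_inter_card ((g : M24) : Equiv.Perm GolayPt) o o'
      change ((g : M24) : Equiv.Perm GolayPt) • o = o at hgo
      rw [hgo] at this
      exact this
    · rintro ⟨hx, hc⟩
      obtain ⟨g, hg, h1, h2⟩ := oct_words_trans ho ho'.1 hx.1 (by rw [ho'.2, hx.2]) hc.symm
      exact ⟨⟨⟨g, hg⟩, h1⟩, h2⟩
  rw [h2, oct_count ho] at h
  exact h

theorem joint_orders {o o' : Finset GolayPt} (ho : o ∈ octads) (ho' : o' ∈ octads) :
    ((o ∩ o').card = 0 → Nat.card ↥(MulAction.stabilizer M24 o ⊓ MulAction.stabilizer M24 o') = 10752) ∧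
    ((o ∩ o').card = 4 → Nat.card ↥(MulAction.stabilizer M24 o ⊓ MulAction.stabilizer M24 o') = 1152) ∧
    ((o ∩ o').card = 2 → Nat.card ↥(MulAction.stabilizer M24 o ⊓ MulAction.stabilizer M24 o') = 720) := by
  have h := joint_card ho ho'
  refine ⟨fun hc => ?_, fun hc => ?_, fun hc => ?_⟩
  · rw [hc, c30] at h; omega
  · rw [hc, c280] at h; omega
  · rw [hc, c448] at h; omega

/-! ### the octad graph -/

def gx4 : ℕ := 13062145
def gc4 : ℕ := 3704512
def gx2 : ℕ := 4845570
def ga2 : ℕ := 6889680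
def gb2 : ℕ := 8783649
theorem gx4_mem : S gx4 ∈ octads := S_mem_octads (by decide +kernel) (by decide +kernel)
theorem gc4_mem : S gc4 ∈ octads := S_mem_octads (by decide +kernel) (by decide +kernel)
theorem gx2_mem : S gx2 ∈ octads := S_mem_octads (by decide +kernel) (by decide +kernel)
theorem ga2_mem : S ga2 ∈ octads := S_mem_octads (by decide +kernel) (by decide +kernel)
theorem gb2_mem : S gb2 ∈ octads := S_mem_octads (by decide +kernel) (by decide +kernel)
theorem gx4_c : (S oct0 ∩ S gx4).card = 4 := by rw [pc_and]; decide +kernel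
theorem gx2_c : (S oct0 ∩ S gx2).card = 2 := by rw [pc_and]; decide +kernel
theorem g4_d : Disjoint (S oct0) (S gc4) ∧ Disjoint (S gc4) (S gx4) := by
  refine ⟨(disjoint_S_iff (by decide +kernel)).2 (by decide +kernel), (disjoint_S_iff (by decide +kernel)).2 (by decide +kernel)⟩
theorem g2_d : Disjoint (S oct0) (S ga2) ∧ Disjoint (S ga2) (S gb2) ∧ Disjoint (S gb2) (S gx2) := by
  refine ⟨(disjoint_S_iff (by decide +kernel)).2 (by decide +kernel), (disjoint_S_iff (by decide +kernel)).2 (by decide +kernel),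
    (disjoint_S_iff (by decide +kernel)).2 (by decide +kernel)⟩

theorem to_pair {o o' x : Finset GolayPt} (ho : o ∈ octads) (ho' : o' ∈ octads) (hx : x ∈ octads) (h : (o ∩ o').card = (S oct0 ∩ x).card) :
    ∃ g ∈ M24, g • S oct0 = o ∧ g • x = o' := by
  obtain ⟨u, hu, rfl⟩ := octad_trans oct0_mem ho
  have hy : u⁻¹ • o' ∈ supports (golayCode : Set (GolayPt → ZMod 2)) := smul_mem_supports (M24.inv_mem hu) ho'.1
  obtain ⟨v, hv, h1, h2⟩ := oct0_words_trans hx.1 hy (by rw [Finset.card_smul_finset, ho'.2, hx.2]) (by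
    rw [← smul_inter_card u (S oct0) (u⁻¹ • o'), smul_inv_smul, h])
  refine ⟨u * v, M24.mul_mem hu hv, by rw [mul_smul, h1], by rw [mul_smul, h2, smul_inv_smul]⟩

theorem smul_disj (g : Equiv.Perm GolayPt) {a b : Finset GolayPt} (h : Disjoint a b) : Disjoint (g • a) (g • b) := by
  rw [Finset.disjoint_iff_inter_eq_empty, ← Finset.card_eq_zero, smul_inter_card, Finset.card_eq_zero, ← Finset.disjoint_iff_inter_eq_empty]
  exact h

theorem adj_iff (a b : octads) : (blockGraph octads).Adj a b ↔ Disjoint (a : Finset GolayPt) (b : Finset GolayPt) := by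
  unfold blockGraph
  rw [SimpleGraph.fromRel_adj]
  constructor
  · rintro ⟨_, h | h⟩
    · exact h
    · exact h.symm
  · intro h
    refine ⟨?_, Or.inl h⟩
    rintro rfl
    rw [disjoint_self] at h
    have h8 := octad_card a.2
    rw [h] at h8
    simp at h8

theorem dist4 {o o' : octads} (h : ((o : Finset GolayPt) ∩ (o' : Finset GolayPt)).card = 4) :
    ∃ c : octads, (blockGraph octads).Adj o c ∧ (blockGraph octads).Adj c o' := by
  obtain ⟨g, hg, h1, h2⟩ := to_pair o.2 o'.2 gx4_mem (by rw [h, gx4_c])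
  refine ⟨⟨g • S gc4, smul_mem_weight hg gc4_mem⟩, ?_, ?_⟩
  · rw [adj_iff]; change Disjoint (o : Finset GolayPt) (g • S gc4); rw [← h1]; exact smul_disj g g4_d.1
  · rw [adj_iff]; change Disjoint (g • S gc4) (o' : Finset GolayPt); rw [← h2]; exact smul_disj g g4_d.2

theorem dist2 {o o' : octads} (h : ((o : Finset GolayPt) ∩ (o' : Finset GolayPt)).card = 2) :
    ∃ c d : octads, (blockGraph octads).Adj o c ∧ (blockGraph octads).Adj c d ∧ (blockGraph octads).Adj d o' := by
  obtain ⟨g, hg, h1, h2⟩ := to_pair o.2 o'.2 gx2_mem (by rw [h, gx2_c])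
  refine ⟨⟨g • S ga2, smul_mem_weight hg ga2_mem⟩, ⟨g • S gb2, smul_mem_weight hg gb2_mem⟩, ?_, ?_, ?_⟩
  · rw [adj_iff]; change Disjoint (o : Finset GolayPt) (g • S ga2); rw [← h1]; exact smul_disj g g2_d.1
  · rw [adj_iff]; exact smul_disj g g2_d.2.1
  · rw [adj_iff]; change Disjoint (g • S gb2) (o' : Finset GolayPt); rw [← h2]; exact smul_disj g g2_d.2.2

theorem sd_card' (A C : Finset GolayPt) : (symmDiff A C).card + 2 * (A ∩ C).card = A.card + C.card := by
  have e1 : symmDiff A C = (A \ C) ∪ (C \ A) := rfl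
  rw [e1, Finset.card_union_of_disjoint (by
    rw [Finset.disjoint_left]; intro x hx hx'
    exact (Finset.mem_sdiff.1 hx).2 (Finset.mem_sdiff.1 hx').1)]
  have e2 := Finset.card_sdiff_add_card_inter A C
  have e3 := Finset.card_sdiff_add_card_inter C A
  rw [Finset.inter_comm C A] at e3
  omega

theorem no_common {o o' : octads} (h : ((o : Finset GolayPt) ∩ (o' : Finset GolayPt)).card = 2) (c : octads)
    (h1 : Disjoint (o : Finset GolayPt) (c : Finset GolayPt)) (h2 : Disjoint (c : Finset GolayPt) (o' : Finset GolayPt)) : False := by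
  have e1 := sd_card' (o : Finset GolayPt) (o' : Finset GolayPt)
  have e2 := sd_card' (symmDiff (o : Finset GolayPt) (o' : Finset GolayPt)) (c : Finset GolayPt)
  have e3 : (symmDiff (o : Finset GolayPt) (o' : Finset GolayPt) ∩ (c : Finset GolayPt)).card = 0 := by
    rw [Finset.card_eq_zero, Finset.eq_empty_iff_forall_notMem]
    intro x hx
    rw [Finset.mem_inter] at hx
    rcases Finset.mem_symmDiff.1 hx.1 with k | k
    · exact Finset.disjoint_left.1 h1 k.1 hx.2
    · exact Finset.disjoint_left.1 h2 hx.2 k.1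
  have e4 := supp_card (code_sd (code_sd o.2.1 o'.2.1) c.2.1)
  rw [octad_card o.2, octad_card o'.2, h] at e1
  rw [e3, octad_card c.2] at e2
  omega

theorem reach (o o' : octads) : (blockGraph octads).Reachable o o' := by
  rcases octad_inter o.2 o'.2 with ⟨_, h⟩ | h | h | h
  · rw [Subtype.ext h]
  · obtain ⟨c, h1, h2⟩ := dist4 h
    exact h1.reachable.trans h2.reachable
  · obtain ⟨c, d, h1, h2, h3⟩ := dist2 h
    exact h1.reachable.trans (h2.reachable.trans h3.reachable)
  · exact ((adj_iff o o').2 (by rw [Finset.disjoint_iff_inter_eq_empty, ← Finset.card_eq_zero]; exact h)).reachable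

theorem graph_main (o o' : octads) (hne : o ≠ o') : (blockGraph octads).Connected ∧
    ((blockGraph octads).dist o o' = 1 ↔ ((o : Finset GolayPt) ∩ (o' : Finset GolayPt)).card = 0) ∧
    ((blockGraph octads).dist o o' = 2 ↔ ((o : Finset GolayPt) ∩ (o' : Finset GolayPt)).card = 4) ∧
    ((blockGraph octads).dist o o' = 3 ↔ ((o : Finset GolayPt) ∩ (o' : Finset GolayPt)).card = 2) := by
  have hcon : (blockGraph octads).Connected := by
    haveI : Nonempty octads := ⟨o⟩
    exact ⟨reach⟩
  have h0 : (blockGraph octads).dist o o' ≠ 0 := fun h => hne (hcon.dist_eq_zero_iff.1 h)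
  have h1 : (blockGraph octads).dist o o' = 1 ↔ ((o : Finset GolayPt) ∩ (o' : Finset GolayPt)).card = 0 := by
    rw [SimpleGraph.dist_eq_one_iff_adj, adj_iff, Finset.disjoint_iff_inter_eq_empty, Finset.card_eq_zero]
  have h4 : ((o : Finset GolayPt) ∩ (o' : Finset GolayPt)).card = 4 → (blockGraph octads).dist o o' = 2 := by
    intro h
    obtain ⟨c, k1, k2⟩ := dist4 h
    have e := SimpleGraph.dist_le (SimpleGraph.Walk.cons k1 (SimpleGraph.Walk.cons k2 SimpleGraph.Walk.nil))
    simp only [SimpleGraph.Walk.length_cons, SimpleGraph.Walk.length_nil] at e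
    have : (blockGraph octads).dist o o' ≠ 1 := fun hh => by have := h1.1 hh; omega
    omega
  have h2 : ((o : Finset GolayPt) ∩ (o' : Finset GolayPt)).card = 2 → (blockGraph octads).dist o o' = 3 := by
    intro h
    obtain ⟨c, d, k1, k2, k3⟩ := dist2 h
    have e := SimpleGraph.dist_le (SimpleGraph.Walk.cons k1 (SimpleGraph.Walk.cons k2 (SimpleGraph.Walk.cons k3 SimpleGraph.Walk.nil)))
    simp only [SimpleGraph.Walk.length_cons, SimpleGraph.Walk.length_nil] at e
    have n1 : (blockGraph octads).dist o o' ≠ 1 := fun hh => by have := h1.1 hh; omega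
    have n2 : (blockGraph octads).dist o o' ≠ 2 := by
      intro hh
      obtain ⟨p, hp⟩ := hcon.exists_walk_length_eq_dist o o'
      rw [hh] at hp
      cases p with
      | nil => simp at hp
      | cons a q =>
        cases q with
        | nil => simp at hp
        | cons b r =>
          cases r with
          | nil => exact no_common h _ ((adj_iff _ _).1 a) ((adj_iff _ _).1 b)
          | cons c s => simp at hp
    omega
  refine ⟨hcon, h1, ⟨fun h => ?_, h4⟩, ⟨fun h => ?_, h2⟩⟩
  · rcases octad_inter o.2 o'.2 with ⟨_, k⟩ | k | k | k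
    · exact absurd (Subtype.ext k) hne
    · exact k
    · have := h2 k; omega
    · have := h1.2 k; omega
  · rcases octad_inter o.2 o'.2 with ⟨_, k⟩ | k | k | k
    · exact absurd (Subtype.ext k) hne
    · have := h4 k; omega
    · exact k
    · have := h1.2 k; omega

end Cfsg.Agent.H9
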