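import Cfsg.Agent.H9.OctStab
import Cfsg.Agent.H9.M24Orb
import Cfsg.Agent.H9.Dod
set_option autoImplicit false

/-! Six-element sets. -/

namespace Cfsg.Agent.H9
open Cfsg
open scoped Pointwise

/-- the enumerations of `E` can all be moved to a fixed sequence -/
def Frame6 (E : Finset GolayPt) (C : ℕ → GolayPt) : Prop := ∀ x : ℕ → GolayPt, (∀ i < 6, x i ∈ E) → (∀ i < 6, ∀ j < i, x i ≠ x j) →
  ∃ g ∈ M24, ∀ i < 6, g (x i) = C i

theorem exists_enum {E : Finset GolayPt} (hE : E.card = 6) : ∃ x : ℕ → GolayPt, (∀ i < 6, x i ∈ E) ∧ (∀ i < 6, ∀ j < i, x i ≠ x j) ∧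
    ∀ p ∈ E, ∃ i < 6, x i = p := by
  have e := (Fintype.equivFinOfCardEq (by rw [Fintype.card_coe, hE]) : ↥E ≃ Fin 6).symm
  refine ⟨fun n => if h : n < 6 then (e ⟨n, h⟩ : GolayPt) else none, ?_, ?_, ?_⟩
  · intro i hi
    simp only [hi, dif_pos]
    exact (e ⟨i, hi⟩).2
  · intro i hi j hj h
    have hj6 : j < 6 := by omega
    simp only [hi, hj6, dif_pos] at h
    have h2 := e.injective (Subtype.ext h)
    rw [Fin.mk.injEq] at h2
    omega
  · intro p hp
    obtain ⟨⟨i, hi⟩, h⟩ := e.surjective ⟨p, hp⟩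
    refine ⟨i, hi, ?_⟩
    simp only [hi, dif_pos]
    rw [h]

theorem full_sym {E : Finset GolayPt} (hE : E.card = 6) {C : ℕ → GolayPt} (hF : Frame6 E C) (σ : Equiv.Perm ↥E) :
    ∃ g ∈ M24, ∀ p : ↥E, g p = σ p := by
  obtain ⟨x, h1, h2, h3⟩ := exists_enum hE
  obtain ⟨g, hg, hgx⟩ := hF x h1 h2
  obtain ⟨k, hk, hkx⟩ := hF (fun n => if h : x n ∈ E then (σ ⟨x n, h⟩ : GolayPt) else x n) (fun i hi => by
    simp only [h1 i hi, dif_pos]
    exact (σ _).2) (fun i hi j hj h => by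
    have hj6 : j < 6 := by omega
    simp only [h1 i hi, h1 j hj6, dif_pos] at h
    have h4 := σ.injective (Subtype.ext h)
    rw [Subtype.mk.injEq] at h4
    exact h2 i hi j hj h4)
  refine ⟨k⁻¹ * g, M24.mul_mem (M24.inv_mem hk) hg, fun p => ?_⟩
  obtain ⟨i, hi, hip⟩ := h3 p p.2
  have h5 := hkx i hi
  simp only [h1 i hi, dif_pos] at h5
  rw [Equiv.Perm.mul_apply, ← hip, hgx i hi, ← h5]
  have h6 : (⟨x i, h1 i hi⟩ : ↥E) = p := Subtype.ext hip
  rw [h6]
  simp

/-- the pointwise stabiliser of a sequence -/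
def seqS (C : ℕ → GolayPt) : Subgroup (Equiv.Perm GolayPt) where
  carrier := {g | g ∈ M24 ∧ ∀ i < 6, g (C i) = C i}
  mul_mem' := fun {a b} ha hb => ⟨M24.mul_mem ha.1 hb.1, fun i hi => by rw [Equiv.Perm.mul_apply, hb.2 i hi, ha.2 i hi]⟩
  one_mem' := ⟨M24.one_mem, fun _ _ => rfl⟩
  inv_mem' := fun {a} ha => ⟨M24.inv_mem ha.1, fun i hi => by
    rw [Equiv.Perm.inv_eq_iff_eq, ha.2 i hi]⟩

theorem card_fix {E : Finset GolayPt} (hE : E.card = 6) {C : ℕ → GolayPt} (hF : Frame6 E C) :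
    Nat.card {g : Equiv.Perm GolayPt // g ∈ M24 ∧ ∀ p ∈ E, g p = p} = Nat.card (seqS C) := by
  obtain ⟨x, h1, h2, h3⟩ := exists_enum hE
  obtain ⟨g, hg, hgx⟩ := hF x h1 h2
  have key : ∀ k : Equiv.Perm GolayPt, (k ∈ M24 ∧ ∀ p ∈ E, k p = p) ↔ g * k * g⁻¹ ∈ seqS C := by
    intro k
    constructor
    · rintro ⟨hk, hkE⟩
      refine ⟨M24.mul_mem (M24.mul_mem hg hk) (M24.inv_mem hg), fun i hi => ?_⟩
      rw [Equiv.Perm.mul_apply, Equiv.Perm.mul_apply, ← hgx i hi]
      rw [show g⁻¹ (g (x i)) = x i by simp, hkE _ (h1 i hi)]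
    · rintro ⟨hk, hkC⟩
      constructor
      · have := M24.mul_mem (M24.mul_mem (M24.inv_mem hg) hk) hg
        have e : g⁻¹ * (g * k * g⁻¹) * g = k := by group
        rwa [e] at this
      · intro p hp
        obtain ⟨i, hi, rfl⟩ := h3 p hp
        have h5 := hkC i hi
        rw [Equiv.Perm.mul_apply, Equiv.Perm.mul_apply, ← hgx i hi, show g⁻¹ (g (x i)) = x i by simp] at h5
        exact g.injective h5
  refine Nat.card_congr (Equiv.subtypeEquiv (MulAut.conj g).toEquiv fun k => ?_)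
  exact key k

theorem card_set {E : Finset GolayPt} (hE : E.card = 6) {C : ℕ → GolayPt} (hF : Frame6 E C) :
    Nat.card ↥(MulAction.stabilizer M24 E) = 720 * Nat.card (seqS C) := by
  have h1 : Nat.card ↥(MulAction.stabilizer M24 E) = Nat.card (octS E) := Nat.card_congr (stabEquiv M24 E).toEquiv
  have h2 := Subgroup.card_mul_index (resHom (octS E) E octS_fix).ker
  rw [card_ker_resHom, octS_inf_fixing, Subgroup.index_ker] at h2
  have h3 : (resHom (octS E) E octS_fix).range = ⊤ := by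
    rw [MonoidHom.range_eq_top]
    intro σ
    obtain ⟨g, hg, hgσ⟩ := full_sym hE hF σ
    have hgE : g • E = E := by
      apply Finset.eq_of_subset_of_card_le
      · intro p hp
        obtain ⟨q, hq, rfl⟩ := Finset.mem_smul_finset.1 hp
        have := hgσ ⟨q, hq⟩
        change g q ∈ E
        rw [this]
        exact (σ _).2
      · rw [Finset.card_smul_finset]
    refine ⟨⟨g, hg, hgE⟩, ?_⟩
    apply Equiv.ext
    intro p
    apply Subtype.ext
    exact hgσ p
  have h4 : Nat.card (Equiv.Perm ↥E) = 720 := by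
    rw [Nat.card_eq_fintype_card, Fintype.card_perm, Fintype.card_coe, hE]; rfl
  rw [h3, Nat.card_congr (Subgroup.topEquiv.toEquiv), h4] at h2
  have h5 : Nat.card ↥(M24 ⊓ fixingSubgroup (Equiv.Perm GolayPt) (E : Set GolayPt)) = Nat.card (seqS C) := by
    rw [← card_fix hE hF]
    refine Nat.card_congr (Equiv.subtypeEquivRight fun g => ?_)
    rw [Subgroup.mem_inf, mem_fixing]
  rw [h1, ← h2, h5, mul_comm]

def C1 (i : ℕ) : GolayPt := B i
def C2 (i : ℕ) : GolayPt := if i < 5 then B i else B 6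

theorem seq1 : Nat.card (seqS C1) = 16 := by
  rw [← card_Hc6]
  have : seqS C1 = Hc 6 := by
    ext g
    exact mem_Hc.symm
  rw [this]

theorem seq2 : Nat.card (seqS C2) = 3 := by
  have e1 : S (orb 6) = (S oct0)ᶜ := by rw [orb6_eq, ← S_compl]; rfl
  have h := card_step (Hc 5) (B 6) (S oct0)ᶜ (fun q hq => by
    rw [← e1] at hq
    obtain ⟨g, hg, h⟩ := trans_step (by norm_num) hq
    exact ⟨g, mem_Hc.2 ⟨(mem_Hc.1 hg).1, fun j hj => (mem_Hc.1 hg).2 j (by omega)⟩, h⟩) (fun g hg => by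
    rw [Finset.mem_compl]
    change g (B 6) ∉ S oct0
    rw [smul_mem_of_fix (fix_oct0 hg)]
    exact B6_notMem)
  rw [card_Hc5, Finset.card_compl, card_pt, octad_card oct0_mem] at h
  have h2 : seqS C2 = Hc 5 ⊓ MulAction.stabilizer (Equiv.Perm GolayPt) (B 6) := by
    ext g
    rw [Subgroup.mem_inf, mem_Hc]
    constructor
    · rintro ⟨h1, h2⟩
      refine ⟨⟨h1, fun j hj => ?_⟩, ?_⟩
      · have := h2 j (by omega)
        unfold C2 at this
        rwa [if_pos hj] at this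
      · exact h2 5 (by norm_num)
    · rintro ⟨⟨h1, h2⟩, h3⟩
      refine ⟨h1, fun j hj => ?_⟩
      unfold C2
      by_cases h5 : j < 5
      · rw [if_pos h5]; exact h2 j h5
      · rw [if_neg h5]; exact h3
  rw [h2]
  omega

theorem frame_in {E o : Finset GolayPt} (ho : o ∈ octads) (hEo : E ⊆ o) : Frame6 E C1 := by
  intro x hx hne
  obtain ⟨g, hg, h1, h2⟩ := oct_frame 5 (by norm_num) ho x (fun i hi => hEo (hx i (by omega))) (fun i hi => hne i (by omega))
  have h3 : g (x 5) ∈ S (orb 5) := by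
    rw [orb5_eq]
    have e : (Nat.land oct0 (Nat.xor (bsMask 5) 16777215)) = oct0 &&& (bsMask 5 ^^^ 16777215) := rfl
    rw [e, S_and, S_compl, Finset.mem_inter, Finset.mem_compl]
    constructor
    · rw [← h1]; exact Finset.mem_smul_finset.2 ⟨x 5, hEo (hx 5 (by norm_num)), rfl⟩
    · rw [mem_bsMask (by norm_num)]
      rintro ⟨i, hi, h⟩
      rw [← h2 i hi] at h
      exact hne 5 (by norm_num) i hi (g.injective h)
  obtain ⟨u, hu, h4⟩ := trans_step (by norm_num) h3
  have huM := (mem_Hc.1 hu).1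
  refine ⟨u⁻¹ * g, M24.mul_mem (M24.inv_mem huM) hg, fun i hi => ?_⟩
  rw [Equiv.Perm.mul_apply, Equiv.Perm.inv_eq_iff_eq]
  by_cases h5 : i < 5
  · rw [h2 i h5]; exact ((mem_Hc.1 hu).2 i h5).symm
  · have : i = 5 := by omega
    subst this
    exact h4.symm

theorem frame_out {E : Finset GolayPt} (hE : E.card = 6) (hEo : ¬ ∃ o ∈ octads, E ⊆ o) : Frame6 E C2 := by
  intro x hx hne
  have hcard : ((Finset.range 5).image x).card = 5 := by
    rw [Finset.card_image_of_injOn, Finset.card_range]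
    intro i hi j hj h
    simp only [Finset.coe_range, Set.mem_Iio] at hi hj
    by_contra hij
    rcases lt_or_gt_of_ne hij with h' | h'
    · exact hne j (by omega) i h' h.symm
    · exact hne i (by omega) j h' h
  obtain ⟨o, ho, hs⟩ := octad_through hcard
  have hx5 : x 5 ∉ o := by
    intro h5
    apply hEo
    refine ⟨o, ho, ?_⟩
    have h6 : ((Finset.range 6).image x) = E := by
      apply Finset.eq_of_subset_of_card_le
      · intro p hp
        obtain ⟨i, hi, rfl⟩ := Finset.mem_image.1 hp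
        exact hx i (Finset.mem_range.1 hi)
      · rw [Finset.card_image_of_injOn, Finset.card_range, hE]
        intro i hi j hj h
        simp only [Finset.coe_range, Set.mem_Iio] at hi hj
        by_contra hij
        rcases lt_or_gt_of_ne hij with h' | h'
        · exact hne j (by omega) i h' h.symm
        · exact hne i (by omega) j h' h
    rw [← h6]
    intro p hp
    obtain ⟨i, hi, rfl⟩ := Finset.mem_image.1 hp
    rw [Finset.mem_range] at hi
    by_cases h7 : i < 5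
    · exact hs (Finset.mem_image.2 ⟨i, Finset.mem_range.2 h7, rfl⟩)
    · have : i = 5 := by omega
      rw [this]; exact h5
  obtain ⟨g, hg, h1, h2, h3⟩ := oct_frame' 5 (by norm_num) ho x (fun i hi => hs (Finset.mem_image.2 ⟨i, Finset.mem_range.2 hi, rfl⟩))
    (fun i hi => hne i (by omega)) hx5
  refine ⟨g, hg, fun i hi => ?_⟩
  unfold C2
  by_cases h5 : i < 5
  · rw [if_pos h5, h2 i h5]
  · have : i = 5 := by omega
    subst this
    rw [if_neg h5, h3]

theorem six_main {E : Finset GolayPt} (hE : E.card = 6) : (∀ σ : Equiv.Perm ↥E, ∃ g ∈ M24, ∀ p : ↥E, g p = σ p) ∧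
    ((∃ o ∈ octads, E ⊆ o) → Nat.card {g : Equiv.Perm GolayPt // g ∈ M24 ∧ ∀ p ∈ E, g p = p} = 16) ∧
    ((¬ ∃ o ∈ octads, E ⊆ o) → Nat.card {g : Equiv.Perm GolayPt // g ∈ M24 ∧ ∀ p ∈ E, g p = p} = 3 ∧
      Nat.card ↥(MulAction.stabilizer M24 E) = 2160) := by
  refine ⟨fun σ => ?_, fun h => ?_, fun h => ⟨?_, ?_⟩⟩
  · by_cases h : ∃ o ∈ octads, E ⊆ o
    · obtain ⟨o, ho, hs⟩ := h
      exact full_sym hE (frame_in ho hs) σ
    · exact full_sym hE (frame_out hE h) σ
  · obtain ⟨o, ho, hs⟩ := h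
    rw [card_fix hE (frame_in ho hs), seq1]
  · rw [card_fix hE (frame_out hE h), seq2]
  · rw [card_set hE (frame_out hE h), seq2]

end Cfsg.Agent.H9
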